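import Mathlib
import Cfsg.Prelude.Def_BlockRank
import Cfsg.Agent.Lib.Helper97.BlockRank

/-!
# Subsections: the Gram matrix of the `e`-parts of a block on a section
-/

set_option autoImplicit false

namespace Cfsg.Agent.Lib.Helper97

open Cfsg Cfsg.Agent.Lib.Helper78 Cfsg.Agent.Lib.Helper16 Cfsg.Agent.Lib.Helper4
open scoped ComplexConjugate

noncomputable section

section General

variable {K : Type*} [Group K] [Fintype K] {M : Ideal AlgInt} {p : ℕ} [Fact p.Prime]

omit [Fintype K] in
theorem isClassFunction_sum_smul {ι : Type*} (s : Finset ι) (a : ι → ℂ) (f : ι → K → ℂ)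
    (hf : ∀ i ∈ s, IsClassFunction K (f i)) : IsClassFunction K (∑ i ∈ s, a i • f i) := by
  intro g h
  simp only [Finset.sum_apply, Pi.smul_apply, smul_eq_mul]
  refine Finset.sum_congr rfl fun i hi => ?_
  rw [hf i hi]

omit [Fact p.Prime] in
theorem regProj_eq_pRegularPart (𝔟 : Set (IrrCharacter K)) (f : K → ℂ) :
    regProj p 𝔟 f = pRegularPart p (blockPart 𝔟 f) := by
  funext y
  by_cases hy : p ∣ orderOf y
  · rw [regProj_of_sing _ _ _ hy, pRegularPart_of_sing _ hy]
  · rw [regProj_of_reg _ _ _ hy, pRegularPart_of_reg _ hy]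

theorem regProj_congr (hM : IsPModular p M) (𝔟 : Set (IrrCharacter K))
    (h𝔟 : ∀ ψ ∈ 𝔟, blockOf M (ψ : K → ℂ) ⊆ 𝔟) {Φ Ψ : K → ℂ} (hΦ : IsClassFunction K Φ)
    (hΨ : IsClassFunction K Ψ) (h : ∀ c : K, ¬ p ∣ orderOf c → Φ c = Ψ c) :
    regProj p 𝔟 Φ = regProj p 𝔟 Ψ := by
  funext y
  by_cases hy : p ∣ orderOf y
  · rw [regProj_of_sing _ _ _ hy, regProj_of_sing _ _ _ hy]
  · rw [regProj_of_reg _ _ _ hy, regProj_of_reg _ _ _ hy,
      blockPart_congr_regular hM 𝔟 h𝔟 hΦ hΨ h y hy]

omit [Fact p.Prime] in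
open Classical in
theorem regProj_irr (𝔟 : Set (IrrCharacter K)) (ψ : IrrCharacter K) :
    regProj p 𝔟 (ψ : K → ℂ) = if ψ ∈ 𝔟 then pRegularPart p (ψ : K → ℂ) else 0 := by
  funext y
  by_cases hy : p ∣ orderOf y
  · rw [regProj_of_sing _ _ _ hy]
    split_ifs
    · rw [pRegularPart_of_sing _ hy]
    · rfl
  · rw [regProj_of_reg _ _ _ hy, blockPart_irr]
    split_ifs
    · rw [pRegularPart_of_reg _ hy]
    · rfl

end General

section Sub

variable {G : Type*} [Group G] [Fintype G] {M : Ideal AlgInt} {p : ℕ} [Fact p.Prime]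

open Classical in
/-- first step: one-sided projection of the Gram identity -/
theorem sum_regProj_tw (hM : IsPModular p M) (x : G) (hx : ∃ k : ℕ, orderOf x = p ^ k)
    {B : Set (IrrCharacter G)} {e : Set (IrrCharacter (Cen x))}
    (he : IsInducedBlock M (Cen x) e B) (s' : Cen x) (hs' : ¬ p ∣ orderOf s') :
    ∑ χ ∈ Finset.univ.filter (· ∈ B), conj ((χ : G → ℂ) (x * (s' : G))) •
        regProj p e (tw x (χ : G → ℂ))
      = ∑ η ∈ Finset.univ.filter (· ∈ e), conj ((η : Cen x → ℂ) s') •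
        pRegularPart p (η : Cen x → ℂ) := by
  have hMp : M.IsPrime := hM.2.1.isPrime
  have hB : IsPBlock M B := he.2.1
  have heb : ∀ ψ ∈ e, blockOf M (ψ : Cen x → ℂ) ⊆ e := by
    intro ψ hψ
    rw [← IsPBlock.eq_blockOf hMp he.1 hψ]
  have hsub : ∀ η ∈ e, η ∈ indSet M x B := by
    intro η hη
    show IsInducedBlock M _ _ B
    rw [← IsPBlock.eq_blockOf hMp he.1 hη]
    exact he
  have h1 : regProj p e (∑ χ ∈ Finset.univ.filter (· ∈ B),
        conj ((χ : G → ℂ) (x * (s' : G))) • tw x (χ : G → ℂ))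
      = regProj p e (∑ η ∈ Finset.univ.filter (· ∈ indSet M x B),
        conj ((η : Cen x → ℂ) s') • (η : Cen x → ℂ)) := by
    apply regProj_congr hM e heb
    · exact isClassFunction_sum_smul _ _ _ fun χ _ =>
        Cfsg.Agent.S0923.twist_isClassFunction x (irr_isClassFunction χ)
    · exact isClassFunction_sum_smul _ _ _ fun η _ => irr_isClassFunction η
    · intro c hc
      have := sum_block_section hM x hx hB c s' hc hs'
      rw [finsum_mem_irr, finsum_mem_irr, ← Finset.sum_filter, ← Finset.sum_filter] at this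
      simp only [Finset.sum_apply, Pi.smul_apply, smul_eq_mul]
      calc _ = ∑ χ ∈ Finset.univ.filter (· ∈ B), (χ : G → ℂ) (x * (c : G)) *
              conj ((χ : G → ℂ) (x * (s' : G))) :=
            Finset.sum_congr rfl fun χ _ => mul_comm _ _
        _ = _ := this
        _ = _ := Finset.sum_congr rfl fun χ _ => mul_comm _ _
  rw [map_sum, map_sum] at h1
  simp only [map_smul] at h1
  rw [h1]
  simp only [regProj_irr]
  rw [Finset.sum_filter, Finset.sum_filter]
  refine Finset.sum_congr rfl fun η _ => ?_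
  by_cases h : η ∈ e
  · rw [if_pos (hsub η h), if_pos h, if_pos h]
  · rw [if_neg h, if_neg h, smul_zero]; simp

open Classical in
/-- **Gram identity for a single subsection**: for `p`-regular `s`,
`∑_{χ ∈ B} |χ^{(x,e)}(s)|² = ∑_{η ∈ e} |η(s)|²`. -/
theorem sum_regProj_tw_sq (hM : IsPModular p M) (x : G) (hx : ∃ k : ℕ, orderOf x = p ^ k)
    {B : Set (IrrCharacter G)} {e : Set (IrrCharacter (Cen x))}
    (he : IsInducedBlock M (Cen x) e B) (s : Cen x) (hs : ¬ p ∣ orderOf s) :
    ∑ χ ∈ Finset.univ.filter (· ∈ B), regProj p e (tw x (χ : G → ℂ)) s *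
        conj (regProj p e (tw x (χ : G → ℂ)) s)
      = ∑ η ∈ Finset.univ.filter (· ∈ e), (η : Cen x → ℂ) s * conj ((η : Cen x → ℂ) s) := by
  have hMp : M.IsPrime := hM.2.1.isPrime
  have heb : ∀ ψ ∈ e, blockOf M (ψ : Cen x → ℂ) ⊆ e := by
    intro ψ hψ
    rw [← IsPBlock.eq_blockOf hMp he.1 hψ]
  have h1 : regProj p e (∑ χ ∈ Finset.univ.filter (· ∈ B),
        conj (regProj p e (tw x (χ : G → ℂ)) s) • tw x (χ : G → ℂ))
      = regProj p e (∑ η ∈ Finset.univ.filter (· ∈ e),
        conj ((η : Cen x → ℂ) s) • (η : Cen x → ℂ)) := by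
    apply regProj_congr hM e heb
    · exact isClassFunction_sum_smul _ _ _ fun χ _ =>
        Cfsg.Agent.S0923.twist_isClassFunction x (irr_isClassFunction χ)
    · exact isClassFunction_sum_smul _ _ _ fun η _ => irr_isClassFunction η
    · intro s' hs'
      have := congrFun (sum_regProj_tw hM x hx he s' hs') s
      simp only [Finset.sum_apply, Pi.smul_apply, smul_eq_mul] at this ⊢
      have h2 := congrArg conj this
      rw [map_sum, map_sum] at h2
      simp only [map_mul, Complex.conj_conj] at h2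
      calc _ = ∑ χ ∈ Finset.univ.filter (· ∈ B), (χ : G → ℂ) (x * (s' : G)) *
              conj (regProj p e (tw x (χ : G → ℂ)) s) :=
            Finset.sum_congr rfl fun χ _ => mul_comm _ _
        _ = _ := h2
        _ = _ := Finset.sum_congr rfl fun η _ => by
            rw [pRegularPart_of_reg _ hs, mul_comm]
  rw [map_sum, map_sum] at h1
  simp only [map_smul] at h1
  have h3 := congrFun h1 s
  simp only [Finset.sum_apply, Pi.smul_apply, smul_eq_mul] at h3
  calc _ = ∑ χ ∈ Finset.univ.filter (· ∈ B), conj (regProj p e (tw x (χ : G → ℂ)) s) *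
          regProj p e (tw x (χ : G → ℂ)) s := Finset.sum_congr rfl fun χ _ => mul_comm _ _
    _ = _ := h3
    _ = _ := Finset.sum_congr rfl fun η hη => by
        have hη' : η ∈ e := by simpa using hη
        rw [regProj_irr, if_pos hη', pRegularPart_of_reg _ hs, mul_comm]

/-- the `e`-part of the twist by `x⁻¹` at `s⁻¹` is the conjugate of the `e`-part of the twist by `x`
at `s` -/
theorem blockPart_tw_inv (x : G) (e : Set (IrrCharacter (Cen x))) (χ : IrrCharacter G)
    (s : Cen x) :
    blockPart e (fun c : Cen x => (χ : G → ℂ) (x⁻¹ * (c : G))) s⁻¹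
      = conj (blockPart e (tw x (χ : G → ℂ)) s) := by
  classical
  rw [blockPart_eq_sum_ite, blockPart_eq_sum_ite, map_sum]
  refine Finset.sum_congr rfl fun ψ _ => ?_
  split_ifs
  · rw [map_mul, irr_inv]
    congr 1
    unfold classInner
    rw [map_mul, map_inv₀, Complex.conj_natCast, map_sum]
    congr 1
    rw [← Equiv.sum_comp (Equiv.inv (Cen x))]
    refine Finset.sum_congr rfl fun c _ => ?_
    simp only [Equiv.inv_apply, map_mul, Complex.conj_conj]
    rw [irr_inv, Complex.conj_conj, ← irr_inv]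
    congr 2
    have hc : (c : G) * x = x * (c : G) := Subgroup.mem_centralizer_singleton_iff.1 c.2
    rw [← hc, mul_inv_rev]
    rfl
  · simp

open Classical in
/-- **The norm of a subsection.** -/
theorem sum_subsection_norm (hM : IsPModular p M) (x : G) (hx : ∃ k : ℕ, orderOf x = p ^ k)
    {B : Set (IrrCharacter G)} {e : Set (IrrCharacter (Cen x))}
    (he : IsInducedBlock M (Cen x) e B) :
    ∑ᶠ χ ∈ B, ∑ᶠ s : Cen x, pRegularPart p (blockPart e (fun c : Cen x =>
        (χ : G → ℂ) (x * (c : G)))) s *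
        blockPart e (fun c : Cen x => (χ : G → ℂ) (x⁻¹ * (c : G))) s⁻¹
      = (Nat.card (Cen x) : ℂ) * (blockRank p e : ℂ) := by
  have hMp : M.IsPrime := hM.2.1.isPrime
  have heb : ∀ ψ ∈ e, blockOf M (ψ : Cen x → ℂ) ⊆ e := by
    intro ψ hψ
    rw [← IsPBlock.eq_blockOf hMp he.1 hψ]
  have hC : (Fintype.card (Cen x) : ℂ) ≠ 0 := by exact_mod_cast Fintype.card_ne_zero
  rw [blockRank_eq hM e heb, Nat.card_eq_fintype_card, mul_inv_cancel_left₀ hC]
  simp_rw [finsum_mem_irr, finsum_eq_sum_of_fintype]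
  rw [← Finset.sum_filter, Finset.sum_comm]
  refine Finset.sum_congr rfl fun s _ => ?_
  by_cases hs : p ∣ orderOf s
  · rw [if_neg (not_not.2 hs)]
    apply Finset.sum_eq_zero
    intro χ _
    rw [pRegularPart_of_sing _ hs, zero_mul]
  · rw [if_pos hs, ← Finset.sum_filter, ← sum_regProj_tw_sq hM x hx he s hs]
    refine Finset.sum_congr rfl fun χ _ => ?_
    rw [blockPart_tw_inv, regProj_eq_pRegularPart, pRegularPart_of_reg _ hs]

end Sub

end

end Cfsg.Agent.Lib.Helper97
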