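import Mathlib
import Cfsg.Agent.Lib.Helper74.HeightNT
import Cfsg.Agent.Lib.Helper78.SubsecTwo
import Cfsg.Agent.Lib.Helper76.Galois

/-!
# The ring `ℤ[ζ_{2^m}]` and the prime over `2` (helper97)

A Galois package for `n = 2^(K+2)`: an element `a` of `ℤ[ζ_n]` with `a / 2^h` locally integral is
divisible by `2^h` in `ℤ[ζ_n]`; traces are divisible by `φ(n)`.
-/

set_option autoImplicit false

namespace Cfsg.Agent.Lib.Helper97

open Cfsg Cfsg.Agent.Lib.Helper78 Cfsg.Agent.Lib.Helper74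
open scoped ComplexConjugate

variable {M : Ideal AlgInt}

theorem sub_one_pow_two_pow {n : ℕ} {ω : ℂ} (hω : ω ^ n = 1) (m : ℕ) :
    ∃ s ∈ rootRing n, (ω - 1) ^ 2 ^ m = ω ^ 2 ^ m + 1 + 2 * s := by
  induction m with
  | zero => exact ⟨-1, Subring.neg_mem _ (Subring.one_mem _), by ring⟩
  | succ m ih =>
    obtain ⟨s, hs, h⟩ := ih
    have hA : ω ^ 2 ^ m ∈ rootRing n := pow_mem_rootRing hω _
    have h2 : (2 : ℂ) ∈ rootRing n := by
      have := natCast_mem (rootRing n) 2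
      exact_mod_cast this
    refine ⟨ω ^ 2 ^ m + 2 * s ^ 2 + 2 * s * ω ^ 2 ^ m + 2 * s, ?_, ?_⟩
    · exact Subring.add_mem _ (Subring.add_mem _ (Subring.add_mem _ hA
        (Subring.mul_mem _ h2 (Subring.pow_mem _ hs 2)))
        (Subring.mul_mem _ (Subring.mul_mem _ h2 hs) hA)) (Subring.mul_mem _ h2 hs)
    · rw [pow_succ 2 m, pow_mul, h, pow_mul]
      ring

/-- elements of the additive closure: traces of elements of `ℤ[ζ]` -/
theorem sum_tau_int {k : ℕ} (τ : (ZMod (2 ^ k))ˣ → (ℂ ≃+* ℂ))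
    (hτ1 : ∀ j w, w ^ 2 ^ k = 1 → τ j w = w ^ (j : ZMod (2 ^ k)).val) {a : ℂ}
    (ha : a ∈ rootRing (2 ^ k)) :
    ∃ c : ℤ, ∑ j, τ j a = (Fintype.card (ZMod (2 ^ k))ˣ : ℂ) * (c : ℂ) := by
  have hφ : (Fintype.card (ZMod (2 ^ k))ˣ : ℂ) ≠ 0 := by exact_mod_cast Fintype.card_ne_zero
  unfold rootRing at ha
  rw [Subring.mem_closure_iff] at ha
  induction ha using AddSubgroup.closure_induction with
  | mem w hw =>
    have hw1 : w ^ 2 ^ k = 1 := by
      induction hw using Submonoid.closure_induction with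
      | mem w hw => exact hw
      | one => simp
      | mul x y _ _ hx hy => rw [mul_pow, hx, hy, one_mul]
    obtain ⟨c, hc⟩ := rootAvg_two_pow_int hw1
    refine ⟨c, ?_⟩
    rw [← hc]
    unfold rootAvg
    rw [mul_inv_cancel_left₀ hφ]
    exact Finset.sum_congr rfl fun j _ => hτ1 j w hw1
  | zero => exact ⟨0, by simp⟩
  | add x y _ _ hx hy =>
    obtain ⟨c, hc⟩ := hx
    obtain ⟨c', hc'⟩ := hy
    refine ⟨c + c', ?_⟩
    simp only [map_add, Finset.sum_add_distrib, hc, hc']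
    push_cast
    ring
  | neg x _ hx =>
    obtain ⟨c, hc⟩ := hx
    refine ⟨-c, ?_⟩
    simp only [map_neg, Finset.sum_neg_distrib, hc]
    push_cast
    ring

section Div

variable {n : ℕ} [NeZero n] (τ : (ZMod n)ˣ → (ℂ ≃+* ℂ)) (ω : ℂ)

/-- an element of `ℤ[ω]` in the local ideal is divisible by `ω - 1` -/
theorem exists_eq_sub_one_mul (hM : IsPModular 2 M) (hω : IsPrimitiveRoot ω n)
    {v : ℂ} (hv : v ∈ rootRing n) (h2 : (2 : ℂ) = (ω - 1) * v)
    (hπM : MemLocalIdeal M (ω - 1)) {a : ℂ} (ha : a ∈ rootRing n) (hl : MemLocalIdeal M a) :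
    ∃ u ∈ rootRing n, a = (ω - 1) * u := by
  have hMp : M.IsPrime := hM.2.1.isPrime
  have hn : 0 < n := Nat.pos_of_ne_zero (NeZero.ne n)
  obtain ⟨z, u', hu', huz⟩ := rootRing_mod hω ha
  have hzl : MemLocalIdeal M (z : ℂ) := by
    have : (z : ℂ) = a - (ω - 1) * u' := by rw [huz]; ring
    rw [this]
    exact MemLocalIdeal.sub hMp hl
      (MemLocalIdeal.mul_right hMp hπM (memLocalRing_of_rootRing hMp hn hu'))
  obtain ⟨z', rfl⟩ := (memLocalIdeal_intCast_iff hM z).1 hzl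
  refine ⟨v * (z' : ℂ) + u', Subring.add_mem _ (Subring.mul_mem _ hv (intCast_mem _ _)) hu', ?_⟩
  rw [huz]
  push_cast
  linear_combination (z' : ℂ) * h2

/-- `a / 2` locally integral implies `a ∈ 2 ℤ[ω]` -/
theorem exists_eq_two_mul (hM : IsPModular 2 M) (hω : IsPrimitiveRoot ω n) (hω1 : ω ≠ 1)
    (hπM : MemLocalIdeal M (ω - 1)) (φ : ℕ) (hφ : 0 < φ)
    {ε : ℂ} (hε : ε ∈ rootRing n) (h2ε : (2 : ℂ) = (ω - 1) ^ φ * ε)
    {s : ℂ} (hs : s ∈ rootRing n) (h2s : (ω - 1) ^ φ = 2 * s)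
    {a : ℂ} (ha : a ∈ rootRing n) (hloc : MemLocalRing M (a / 2)) :
    ∃ γ ∈ rootRing n, a = 2 * γ := by
  have hMp : M.IsPrime := hM.2.1.isPrime
  have hn : 0 < n := Nat.pos_of_ne_zero (NeZero.ne n)
  have hπ0 : ω - 1 ≠ 0 := sub_ne_zero.2 hω1
  have hπR : ω - 1 ∈ rootRing n :=
    Subring.sub_mem _ (mem_rootRing_of_pow hω.pow_eq_one) (Subring.one_mem _)
  have h2v : (2 : ℂ) = (ω - 1) * ((ω - 1) ^ (φ - 1) * ε) := by
    rw [← mul_assoc, ← pow_succ', h2ε]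
    congr 2
    omega
  have hvR : (ω - 1) ^ (φ - 1) * ε ∈ rootRing n :=
    Subring.mul_mem _ (Subring.pow_mem _ hπR _) hε
  have claim : ∀ i : ℕ, i ≤ φ → ∃ u ∈ rootRing n, a = (ω - 1) ^ i * u := by
    intro i
    induction i with
    | zero => intro _; exact ⟨a, ha, by simp⟩
    | succ i ih =>
      intro hi
      obtain ⟨u, hu, hau⟩ := ih (by omega)
      have hul : MemLocalIdeal M u := by
        have h1 : u = a / 2 * ((ω - 1) ^ (φ - i - 1) * ε) * (ω - 1) := by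
          have h2 : (2 : ℂ) = (ω - 1) ^ i * ((ω - 1) ^ (φ - i - 1) * (ω - 1)) * ε := by
            rw [h2ε, ← pow_succ, ← pow_add]
            congr 2
            omega
          have h4 : (ω - 1) ^ i ≠ 0 := pow_ne_zero _ hπ0
          rw [div_mul_eq_mul_div, div_mul_eq_mul_div, eq_div_iff two_ne_zero]
          rw [hau]
          linear_combination u * h2
        rw [h1]
        refine MemLocalIdeal.mul_left hMp (MemLocalRing.mul hMp hloc ?_) hπM
        exact memLocalRing_of_rootRing hMp hn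
          (Subring.mul_mem _ (Subring.pow_mem _ hπR _) hε)
      obtain ⟨u', hu', huu⟩ := exists_eq_sub_one_mul ω hM hω hvR h2v hπM hu hul
      exact ⟨u', hu', by rw [hau, huu, pow_succ]; ring⟩
  obtain ⟨u, hu, hau⟩ := claim φ le_rfl
  exact ⟨s * u, Subring.mul_mem _ hs hu, by rw [hau, h2s]; ring⟩

theorem exists_eq_two_pow_mul (hM : IsPModular 2 M) (hω : IsPrimitiveRoot ω n) (hω1 : ω ≠ 1)
    (hπM : MemLocalIdeal M (ω - 1)) (φ : ℕ) (hφ : 0 < φ)
    {ε : ℂ} (hε : ε ∈ rootRing n) (h2ε : (2 : ℂ) = (ω - 1) ^ φ * ε)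
    {s : ℂ} (hs : s ∈ rootRing n) (h2s : (ω - 1) ^ φ = 2 * s) (h : ℕ) :
    ∀ {a : ℂ}, a ∈ rootRing n → MemLocalRing M (a / 2 ^ h) → ∃ γ ∈ rootRing n, a = 2 ^ h * γ := by
  have hMp : M.IsPrime := hM.2.1.isPrime
  induction h with
  | zero => intro a ha _; exact ⟨a, ha, by simp⟩
  | succ h ih =>
    intro a ha hloc
    have h1 : MemLocalRing M (a / 2) := by
      have : a / 2 = a / 2 ^ (h + 1) * ((2 ^ h : ℕ) : ℂ) := by
        push_cast
        field_simp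
        ring
      rw [this]
      exact MemLocalRing.mul hMp hloc (memLocalRing_natCast hMp _)
    obtain ⟨a', ha', rfl⟩ := exists_eq_two_mul ω hM hω hω1 hπM φ hφ hε h2ε hs h2s ha h1
    have h2 : MemLocalRing M (a' / 2 ^ h) := by
      have : a' / 2 ^ h = 2 * a' / 2 ^ (h + 1) := by
        field_simp
        ring
      rw [this]; exact hloc
    obtain ⟨γ, hγ, rfl⟩ := ih ha' h2
    exact ⟨γ, hγ, by ring⟩

end Div

/-- **The Galois package for `p = 2`.** -/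
theorem galois_pkg_two (hM : IsPModular 2 M) (K : ℕ) :
    ∃ τ : (ZMod (2 ^ (K + 2)))ˣ → (ℂ ≃+* ℂ),
      (∀ j w, w ^ 2 ^ (K + 2) = 1 → τ j w = w ^ (j : ZMod (2 ^ (K + 2))).val) ∧
      (∀ a ∈ rootRing (2 ^ (K + 2)), a ≠ 0 → ∀ h : ℕ, MemLocalRing M (a / 2 ^ h) →
        (Fintype.card (ZMod (2 ^ (K + 2)))ˣ : ℝ) * 4 ^ h ≤ ∑ j, ‖τ j a‖ ^ 2) ∧
      (∀ a ∈ rootRing (2 ^ (K + 2)), a ≠ 0 → ∀ h : ℕ, MemLocalIdeal M (a / 2 ^ h) →
        ∀ t : (ZMod (2 ^ (K + 2)))ˣ → ℝ, (∀ j, (t j : ℂ) = τ j a) → (∀ j, 0 ≤ t j) →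
          (Fintype.card (ZMod (2 ^ (K + 2)))ˣ : ℝ) * 2 ^ (h + 1) ≤ ∑ j, t j) := by
  have hMp : M.IsPrime := hM.2.1.isPrime
  have hn2 : 2 < 2 ^ (K + 2) := by
    calc 2 < 2 ^ 2 := by norm_num
      _ ≤ 2 ^ (K + 2) := Nat.pow_le_pow_right (by norm_num) (by omega)
  have hn : 0 < 2 ^ (K + 2) := by positivity
  obtain ⟨τ, ω, hω, hτ1, hτ3, hτ4⟩ := galois_pkg2 (2 ^ (K + 2)) hn2
  have hω1 : ω ≠ 1 := by
    rintro rfl
    have := hω.eq_orderOf
    rw [orderOf_one] at this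
    omega
  have : Fact (Nat.Prime 2) := ⟨Nat.prime_two⟩
  have hτ4' : ∏ j, τ j (ω - 1) = (2 : ℂ) := by
    rw [hτ4, show K + 2 = (K + 1) + 1 from rfl, Polynomial.eval_one_cyclotomic_prime_pow]
    simp
  have hπM : MemLocalIdeal M (ω - 1) := memLocalIdeal_root_sub_one hM hω.pow_eq_one
  have hπ0 : ω - 1 ≠ 0 := sub_ne_zero.2 hω1
  obtain ⟨φ, hφdef⟩ : ∃ φ : ℕ, φ = Fintype.card (ZMod (2 ^ (K + 2)))ˣ := ⟨_, rfl⟩
  have hφ : 0 < φ := by rw [hφdef]; exact Fintype.card_pos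
  have hφR : (0 : ℝ) < (φ : ℝ) := by exact_mod_cast hφ
  have hφ2 : φ = 2 ^ (K + 1) := by
    rw [hφdef, ZMod.card_units_eq_totient, Nat.totient_prime_pow Nat.prime_two (by omega)]
    simp
  have hg : ∀ j : (ZMod (2 ^ (K + 2)))ˣ, ∃ g ∈ rootRing (2 ^ (K + 2)),
      τ j (ω - 1) = (ω - 1) * g := by
    intro j
    refine ⟨∑ l ∈ Finset.range (j : ZMod (2 ^ (K + 2))).val, ω ^ l,
      Subring.sum_mem _ fun l _ => pow_mem_rootRing hω.pow_eq_one l, ?_⟩
    rw [mul_geom_sum, map_sub, map_one, hτ1 j ω hω.pow_eq_one]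
  choose g hgR hg using hg
  obtain ⟨ε, hεdef⟩ : ∃ ε : ℂ, ε = ∏ j, g j := ⟨_, rfl⟩
  have hεR : ε ∈ rootRing (2 ^ (K + 2)) := by
    rw [hεdef]; exact Subring.prod_mem _ fun j _ => hgR j
  have h2ε : (2 : ℂ) = (ω - 1) ^ φ * ε := by
    rw [← hτ4', Finset.prod_congr rfl fun j _ => hg j, Finset.prod_mul_distrib, Finset.prod_const,
      Finset.card_univ, hφdef, hεdef]
  have hωφ : ω ^ φ = -1 := by
    have h1 : (ω ^ φ) ^ 2 = 1 := by
      rw [← pow_mul, hφ2, ← pow_succ]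
      exact hω.pow_eq_one
    have h2 : ω ^ φ ≠ 1 := by
      intro h
      have := hω.dvd_of_pow_eq_one _ h
      rw [hφ2] at this
      have h3 := Nat.le_of_dvd (by positivity) this
      have h4 : 2 ^ (K + 1) < 2 ^ (K + 2) := Nat.pow_lt_pow_right (by norm_num) (by omega)
      omega
    rcases sq_eq_one_iff.1 h1 with h | h
    · exact absurd h h2
    · exact h
  obtain ⟨s, hsR, hs⟩ := sub_one_pow_two_pow hω.pow_eq_one (K + 1)
  have h2s : (ω - 1) ^ φ = 2 * s := by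
    rw [hφ2, hs, ← hφ2, hωφ]; ring
  have hdiv : ∀ (h : ℕ) {a : ℂ}, a ∈ rootRing (2 ^ (K + 2)) → MemLocalRing M (a / 2 ^ h) →
      ∃ γ ∈ rootRing (2 ^ (K + 2)), a = 2 ^ h * γ :=
    fun h => exists_eq_two_pow_mul (M := M) ω hM hω hω1 hπM φ hφ hεR h2ε hsR h2s h
  have hnorm : ∀ γ ∈ rootRing (2 ^ (K + 2)), γ ≠ 0 → ∃ z : ℤ, z ≠ 0 ∧ ∏ j, τ j γ = (z : ℂ) := by
    intro γ hγ hγ0
    obtain ⟨z, hz⟩ := hτ3 γ hγ
    refine ⟨z, ?_, hz⟩
    rintro rfl
    rw [Int.cast_zero, Finset.prod_eq_zero_iff] at hz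
    obtain ⟨j, -, hj⟩ := hz
    exact hγ0 ((map_eq_zero_iff _ (τ j).injective).1 hj)
  refine ⟨τ, hτ1, ?_, ?_⟩
  · intro a ha ha0 h hloc
    obtain ⟨γ, hγ, rfl⟩ := hdiv h ha hloc
    have hγ0 : γ ≠ 0 := by rintro rfl; exact ha0 (by simp)
    obtain ⟨z, hz0, hz⟩ := hnorm γ hγ hγ0
    have hpos : ∀ j, 0 < ‖τ j γ‖ ^ 2 := by
      intro j
      have : τ j γ ≠ 0 := fun h0 => hγ0 ((map_eq_zero_iff _ (τ j).injective).1 h0)
      positivity
    have h1 := Helper76.card_le_sum_of_one_le_prod (fun j => ‖τ j γ‖ ^ 2) hpos (by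
      rw [Finset.prod_pow, ← norm_prod, hz, Complex.norm_intCast]
      have : (1 : ℤ) ≤ |z| := Int.one_le_abs hz0
      have h2 : (1 : ℝ) ≤ |(z : ℝ)| := by exact_mod_cast this
      nlinarith)
    have h3 : ∀ j, ‖τ j (2 ^ h * γ)‖ ^ 2 = 4 ^ h * ‖τ j γ‖ ^ 2 := by
      intro j
      rw [map_mul, map_pow, map_ofNat, norm_mul, norm_pow, mul_pow, ← pow_mul, mul_comm h 2, pow_mul]
      norm_num
    rw [Finset.sum_congr rfl fun j _ => h3 j, ← Finset.mul_sum, mul_comm]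
    exact mul_le_mul_of_nonneg_left h1 (by positivity)
  · intro a ha ha0 h hloc t ht ht0
    obtain ⟨γ, hγ, rfl⟩ := hdiv h ha (MemLocalIdeal.memLocalRing hloc)
    have hγ0 : γ ≠ 0 := by rintro rfl; exact ha0 (by simp)
    have hγl : MemLocalIdeal M γ := by
      have : γ = 2 ^ h * γ / 2 ^ h := by field_simp
      rw [this]; exact hloc
    have h2v : (2 : ℂ) = (ω - 1) * ((ω - 1) ^ (φ - 1) * ε) := by
      rw [← mul_assoc, ← pow_succ', h2ε]
      congr 2
      omega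
    have hπR : ω - 1 ∈ rootRing (2 ^ (K + 2)) :=
      Subring.sub_mem _ (mem_rootRing_of_pow hω.pow_eq_one) (Subring.one_mem _)
    obtain ⟨u, hu, hγu⟩ := exists_eq_sub_one_mul ω hM hω
      (Subring.mul_mem _ (Subring.pow_mem _ hπR _) hεR) h2v hπM hγ hγl
    have hu0 : u ≠ 0 := by rintro rfl; exact hγ0 (by rw [hγu, mul_zero])
    obtain ⟨z, hz0, hz⟩ := hnorm u hu hu0
    obtain ⟨c, hc⟩ := sum_tau_int τ hτ1 hγ
    -- the real conjugates of `γ`
    set t' : (ZMod (2 ^ (K + 2)))ˣ → ℝ := fun j => t j / 2 ^ h with ht'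
    have ht'C : ∀ j, (t' j : ℂ) = τ j γ := by
      intro j
      rw [ht']
      push_cast
      rw [ht j, map_mul, map_pow, map_ofNat]
      field_simp
    have ht'pos : ∀ j, 0 < t' j := by
      intro j
      have h1 : 0 ≤ t' j := div_nonneg (ht0 j) (by positivity)
      refine lt_of_le_of_ne h1 fun h0 => ?_
      have h2 := ht'C j
      rw [← h0, Complex.ofReal_zero] at h2
      exact hγ0 ((map_eq_zero_iff _ (τ j).injective).1 h2.symm)
    have hprod : (2 : ℝ) ≤ ∏ j, t' j := by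
      have h1 : ((∏ j, t' j : ℝ) : ℂ) = 2 * (z : ℂ) := by
        rw [Complex.ofReal_prod, Finset.prod_congr rfl fun j _ => ht'C j, hγu]
        simp only [map_mul]
        rw [Finset.prod_mul_distrib, hτ4', hz]
      have h2 : (∏ j, t' j : ℝ) = 2 * (z : ℝ) := by exact_mod_cast h1
      have h3 : 0 < ∏ j, t' j := Finset.prod_pos fun j _ => ht'pos j
      rw [h2] at h3 ⊢
      have h4 : (0 : ℝ) < (z : ℝ) := by linarith
      have h5 : (1 : ℤ) ≤ z := by
        have : (0 : ℤ) < z := by exact_mod_cast h4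
        omega
      have h6 : (1 : ℝ) ≤ (z : ℝ) := by exact_mod_cast h5
      linarith
    have hsumC : ((∑ j, t' j : ℝ) : ℂ) = (φ : ℂ) * (c : ℂ) := by
      rw [Complex.ofReal_sum, Finset.sum_congr rfl fun j _ => ht'C j, hc, hφdef]
    have hsum : ∑ j, t' j = (φ : ℝ) * (c : ℝ) := by exact_mod_cast hsumC
    -- strict AM-GM
    classical
    obtain ⟨j0⟩ : Nonempty (ZMod (2 ^ (K + 2)))ˣ := ⟨1⟩
    have h7 := Helper76.card_le_sum_of_one_le_prod
      (fun j => if j = j0 then t' j / 2 else t' j)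
      (fun j => by
        by_cases hj : j = j0
        · simp only [if_pos hj]; exact div_pos (ht'pos j) (by norm_num)
        · simp only [if_neg hj]; exact ht'pos j) (by
        have h8 : ∏ j, (if j = j0 then t' j / 2 else t' j)
            = (∏ j, t' j) / 2 := by
          rw [← Finset.mul_prod_erase Finset.univ _ (Finset.mem_univ j0),
            ← Finset.mul_prod_erase Finset.univ t' (Finset.mem_univ j0), if_pos rfl]
          rw [Finset.prod_congr rfl fun j hj => if_neg (Finset.ne_of_mem_erase hj)]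
          ring
        rw [h8]
        linarith)
    have h9 : ∑ j, (if j = j0 then t' j / 2 else t' j) = (∑ j, t' j) - t' j0 / 2 := by
      rw [← Finset.add_sum_erase Finset.univ _ (Finset.mem_univ j0),
        ← Finset.add_sum_erase Finset.univ t' (Finset.mem_univ j0), if_pos rfl]
      rw [Finset.sum_congr rfl fun j hj => if_neg (Finset.ne_of_mem_erase hj)]
      ring
    rw [h9, hsum, ← hφdef] at h7
    have h10 : (φ : ℝ) * 1 < (φ : ℝ) * (c : ℝ) := by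
      have := ht'pos j0
      linarith
    have h11 : (1 : ℝ) < (c : ℝ) := lt_of_mul_lt_mul_left h10 hφR.le
    have h12 : (2 : ℤ) ≤ c := by
      have : (1 : ℤ) < c := by exact_mod_cast h11
      omega
    have h13 : (2 : ℝ) ≤ (c : ℝ) := by exact_mod_cast h12
    have h14 : ∑ j, t j = 2 ^ h * ∑ j, t' j := by
      rw [Finset.mul_sum]
      refine Finset.sum_congr rfl fun j _ => ?_
      rw [ht']
      field_simp
    rw [h14, hsum, ← hφdef, pow_succ]
    have h15 : (0 : ℝ) < 2 ^ h := by positivity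
    nlinarith [mul_pos hφR h15]

end Cfsg.Agent.Lib.Helper97
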