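import Mathlib
import Cfsg.Agent.Lib.Helper97.TwoAdic

/-!
# An abstract bound for `2`-blocks (helper97)

A Hermitian matrix `R` over `ℤ[ζ_{2^m}]` with `R R^* = N R` and trace `N L`, `L ≤ 3`, whose averaged
diagonal entries are odd for the indices of height zero.
-/

set_option autoImplicit false

namespace Cfsg.Agent.Lib.Helper97

open Cfsg Cfsg.Agent.Lib.Helper78 Cfsg.Agent.Lib.Helper74
open scoped ComplexConjugate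

variable {M : Ideal AlgInt}

theorem weight_le_four_pow (h : ℕ) : (if h = 0 then 3 else 2 * 2 ^ h) ≤ 3 * 4 ^ h := by
  by_cases h0 : h = 0
  · simp [h0]
  · rw [if_neg h0]
    have h1 : (4 : ℕ) ^ h = 2 ^ h * 2 ^ h := by rw [← mul_pow]; norm_num
    have h2 : 1 ≤ 2 ^ h := Nat.one_le_two_pow
    rw [h1]
    nlinarith

theorem abstract_two_bound {X : Type*} (K : ℕ) (τ : (ZMod (2 ^ (K + 2)))ˣ → (ℂ ≃+* ℂ))
    (hτ1 : ∀ j w, w ^ 2 ^ (K + 2) = 1 → τ j w = w ^ (j : ZMod (2 ^ (K + 2))).val)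
    (hτ2 : ∀ a ∈ rootRing (2 ^ (K + 2)), a ≠ 0 → ∀ h : ℕ, MemLocalRing M (a / 2 ^ h) →
        (Fintype.card (ZMod (2 ^ (K + 2)))ˣ : ℝ) * 4 ^ h ≤ ∑ j, ‖τ j a‖ ^ 2)
    (hτ3 : ∀ a ∈ rootRing (2 ^ (K + 2)), a ≠ 0 → ∀ h : ℕ, MemLocalIdeal M (a / 2 ^ h) →
        ∀ t : (ZMod (2 ^ (K + 2)))ˣ → ℝ, (∀ j, (t j : ℂ) = τ j a) → (∀ j, 0 ≤ t j) →
          (Fintype.card (ZMod (2 ^ (K + 2)))ˣ : ℝ) * 2 ^ (h + 1) ≤ ∑ j, t j)
    (BF : Finset X) (ht : X → ℕ) (R : X → X → ℂ) (hR : ∀ χ ψ, R χ ψ ∈ rootRing (2 ^ (K + 2)))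
    (N : ℕ) (L : ℤ) (hN : 0 < N) (hL : L ≤ 3)
    (hherm : ∀ χ ψ, R χ ψ = conj (R ψ χ))
    (hsq : ∀ χ ∈ BF, ∑ ψ ∈ BF, R χ ψ * conj (R χ ψ) = (N : ℂ) * R χ χ)
    (htr : ∑ χ ∈ BF, R χ χ = (N : ℂ) * (L : ℂ))
    (Z : X → ℤ)
    (hZ : ∀ χ ∈ BF, ∑ j, τ j (R χ χ) = (Fintype.card (ZMod (2 ^ (K + 2)))ˣ : ℂ) * (Z χ : ℂ))
    (hodd : ∀ χ ∈ BF, ht χ = 0 → Odd (Z χ))
    (hex : ∃ ψ0 ∈ BF, ht ψ0 = 0)
    (h3 : ∀ ψ0 ∈ BF, ht ψ0 = 0 → ∀ χ ∈ BF, R χ ψ0 ≠ 0 ∧ MemLocalRing M (R χ ψ0 / 2 ^ ht χ))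
    (h6 : ∀ χ ∈ BF, 1 ≤ ht χ → MemLocalIdeal M (R χ χ / 2 ^ ht χ)) :
    ∑ χ ∈ BF, (if ht χ = 0 then 3 else 2 * 2 ^ ht χ) ≤ 3 * N := by
  have hn : 0 < 2 ^ (K + 2) := by positivity
  obtain ⟨φ, hφdef⟩ : ∃ φ : ℕ, φ = Fintype.card (ZMod (2 ^ (K + 2)))ˣ := ⟨_, rfl⟩
  rw [← hφdef] at hτ2 hτ3 hZ
  have hφ : 0 < φ := by rw [hφdef]; exact Fintype.card_pos
  have hφR : (0 : ℝ) < (φ : ℝ) := by exact_mod_cast hφ
  have hφC : (φ : ℂ) ≠ 0 := by exact_mod_cast hφ.ne'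
  have hNR : (0 : ℝ) < (N : ℝ) := by exact_mod_cast hN
  have hNC : (N : ℂ) ≠ 0 := by exact_mod_cast hN.ne'
  have key : ∀ (j : (ZMod (2 ^ (K + 2)))ˣ), ∀ χ ∈ BF,
      ((∑ ψ ∈ BF, ‖τ j (R χ ψ)‖ ^ 2 : ℝ) : ℂ) = (N : ℂ) * τ j (R χ χ) := by
    intro j χ hχ
    have h1 := congrArg (τ j) (hsq χ hχ)
    rw [map_sum, map_mul, map_natCast] at h1
    rw [← h1]
    push_cast
    refine Finset.sum_congr rfl fun ψ _ => ?_
    rw [map_mul, map_conj_of_mem_rootRing hn (τ j) _ (hτ1 j) (hR χ ψ), Complex.mul_conj']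
  have hsumj : ∀ χ ∈ BF, ∑ j, ∑ ψ ∈ BF, ‖τ j (R χ ψ)‖ ^ 2 = (N : ℝ) * ((φ : ℝ) * (Z χ : ℝ)) := by
    intro χ hχ
    have h1 : ((∑ j, ∑ ψ ∈ BF, ‖τ j (R χ ψ)‖ ^ 2 : ℝ) : ℂ)
        = (((N : ℝ) * ((φ : ℝ) * (Z χ : ℝ)) : ℝ) : ℂ) := by
      rw [Complex.ofReal_sum, Finset.sum_congr rfl fun j _ => key j χ hχ, ← Finset.mul_sum,
        hZ χ hχ]
      push_cast
      ring
    exact_mod_cast h1
  have hsumZ : ∑ χ ∈ BF, (Z χ : ℝ) = (N : ℝ) * (L : ℝ) := by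
    have h1 : (φ : ℂ) * ∑ χ ∈ BF, (Z χ : ℂ) = (φ : ℂ) * ((N : ℂ) * (L : ℂ)) := by
      rw [Finset.mul_sum, ← Finset.sum_congr rfl fun χ hχ => hZ χ hχ, Finset.sum_comm]
      have h2 : ∀ j : (ZMod (2 ^ (K + 2)))ˣ, ∑ χ ∈ BF, τ j (R χ χ) = (N : ℂ) * (L : ℂ) := by
        intro j
        rw [← map_sum, htr, map_mul, map_natCast, map_intCast]
      rw [Finset.sum_congr rfl fun j _ => h2 j, Finset.sum_const, Finset.card_univ, nsmul_eq_mul,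
        hφdef]
    have h2 := mul_left_cancel₀ hφC h1
    exact_mod_cast h2
  have hfin : ((∑ χ ∈ BF, (if ht χ = 0 then 3 else 2 * 2 ^ ht χ) : ℕ) : ℝ) ≤ ((3 * N : ℕ) : ℝ) := by
    rw [Nat.cast_sum]
    by_cases hA : ∃ ψ0 ∈ BF, ht ψ0 = 0 ∧ Z ψ0 ≤ 1
    · obtain ⟨ψ0, hψ0, h0, hZ1⟩ := hA
      have h1 : ∑ χ ∈ BF, (φ : ℝ) * 4 ^ ht χ ≤ ∑ χ ∈ BF, ∑ j, ‖τ j (R ψ0 χ)‖ ^ 2 := by
        refine Finset.sum_le_sum fun χ hχ => ?_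
        have h2 := hτ2 _ (hR χ ψ0) (h3 ψ0 hψ0 h0 χ hχ).1 _ (h3 ψ0 hψ0 h0 χ hχ).2
        refine h2.trans (le_of_eq (Finset.sum_congr rfl fun j _ => ?_))
        rw [hherm ψ0 χ, map_conj_of_mem_rootRing hn (τ j) _ (hτ1 j) (hR χ ψ0), RCLike.norm_conj]
      rw [Finset.sum_comm, hsumj ψ0 hψ0, ← Finset.mul_sum] at h1
      have h4 : ∑ χ ∈ BF, (4 : ℝ) ^ ht χ ≤ (N : ℝ) := by
        have hZ1R : (Z ψ0 : ℝ) ≤ 1 := by exact_mod_cast hZ1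
        have h5 : (φ : ℝ) * ∑ χ ∈ BF, (4 : ℝ) ^ ht χ ≤ (φ : ℝ) * (N : ℝ) := by
          have h6 : (N : ℝ) * ((φ : ℝ) * (Z ψ0 : ℝ)) ≤ (N : ℝ) * ((φ : ℝ) * 1) :=
            mul_le_mul_of_nonneg_left (mul_le_mul_of_nonneg_left hZ1R hφR.le) hNR.le
          linarith
        exact le_of_mul_le_mul_left h5 hφR
      calc ∑ χ ∈ BF, (((if ht χ = 0 then 3 else 2 * 2 ^ ht χ) : ℕ) : ℝ)
          ≤ ∑ χ ∈ BF, 3 * (4 : ℝ) ^ ht χ := by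
            refine Finset.sum_le_sum fun χ _ => ?_
            exact_mod_cast weight_le_four_pow (ht χ)
        _ = 3 * ∑ χ ∈ BF, (4 : ℝ) ^ ht χ := by rw [Finset.mul_sum]
        _ ≤ ((3 * N : ℕ) : ℝ) := by push_cast; linarith
    · push Not at hA
      obtain ⟨ψ1, hψ1, h01⟩ := hex
      have hw : ∀ χ ∈ BF, (((if ht χ = 0 then 3 else 2 * 2 ^ ht χ) : ℕ) : ℝ) ≤ (Z χ : ℝ) := by
        intro χ hχ
        by_cases h0 : ht χ = 0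
        · rw [if_pos h0]
          have h1 := hA χ hχ h0
          obtain ⟨a, ha⟩ := hodd χ hχ h0
          have h2 : (3 : ℤ) ≤ Z χ := by omega
          exact_mod_cast h2
        · rw [if_neg h0]
          have hne : R χ χ ≠ 0 := by
            intro hzero
            have h1 := key 1 χ hχ
            rw [hzero, map_zero, mul_zero] at h1
            have h2 : ∑ ψ ∈ BF, ‖τ 1 (R χ ψ)‖ ^ 2 = 0 := by exact_mod_cast h1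
            have h3' := (Finset.sum_eq_zero_iff_of_nonneg (fun ψ _ => by positivity)).1 h2 ψ1 hψ1
            have h4 : τ 1 (R χ ψ1) = 0 := by simpa using h3'
            exact (h3 ψ1 hψ1 h01 χ hχ).1 ((map_eq_zero_iff _ (τ 1).injective).1 h4)
          have h7 := hτ3 _ (hR χ χ) hne _ (h6 χ hχ (by omega))
            (fun j => (∑ ψ ∈ BF, ‖τ j (R χ ψ)‖ ^ 2) / (N : ℝ)) (fun j => by
              rw [Complex.ofReal_div, key j χ hχ, Complex.ofReal_natCast]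
              field_simp) (fun j => by positivity)
          rw [← Finset.sum_div, hsumj χ hχ, mul_div_cancel_left₀ _ hNR.ne'] at h7
          have h8 := le_of_mul_le_mul_left h7 hφR
          push_cast
          rw [pow_succ] at h8
          linarith
      calc ∑ χ ∈ BF, (((if ht χ = 0 then 3 else 2 * 2 ^ ht χ) : ℕ) : ℝ)
          ≤ ∑ χ ∈ BF, (Z χ : ℝ) := Finset.sum_le_sum hw
        _ = (N : ℝ) * (L : ℝ) := hsumZ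
        _ ≤ (N : ℝ) * 3 := mul_le_mul_of_nonneg_left (by exact_mod_cast hL) hNR.le
        _ = ((3 * N : ℕ) : ℝ) := by push_cast; ring
  exact_mod_cast hfin

end Cfsg.Agent.Lib.Helper97
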