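import Mathlib
import Cfsg.Agent.Lib.Helper97.TwoAbstract
import Cfsg.Agent.Lib.Helper74.HeightSec

/-!
# Major subsections of `2`-blocks (helper97)

Sambale's bounds `3 k₀(B) + 2 ∑ 2^h ≤ 3 · 2^d` for a major subsection `(z, b)` with `l(b) ≤ 3` or
`k(B) - l(b) ≤ 3`.
-/

set_option autoImplicit false

namespace Cfsg.Agent.Lib.Helper97

open Cfsg Cfsg.Agent.Lib.Helper4 Cfsg.Agent.Lib.Helper16
  Cfsg.Agent.Lib.Helper78 Cfsg.Agent.Lib.Helper74 Cfsg.Agent.Lib.Helper77b
open scoped ComplexConjugate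

variable {G : Type*} [Group G] [Fintype G] {M : Ideal AlgInt}

section P

variable {p : ℕ} [Fact p.Prime]

omit [Fact p.Prime] in
theorem subAlpha_herm (x : G) (b : Set (IrrCharacter (Cen x))) (χ ψ : IrrCharacter G) :
    subAlpha p x b χ ψ = conj (subAlpha p x b ψ χ) := by
  unfold subAlpha
  rw [map_mul, map_div₀, Complex.conj_natCast, Complex.conj_natCast, map_sum]
  congr 1
  refine Finset.sum_congr rfl fun s _ => ?_
  rw [map_mul, Complex.conj_conj, mul_comm]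

/-- the coefficient `p^d χ(1) / (|G| p^h)` is locally integral -/
theorem memLocalRing_coeff_div (hM : IsPModular p M) (x : G)
    {B : Set (IrrCharacter G)} {β : Set (IrrCharacter (Cen x))}
    (hmaj : blockDefect p β = blockDefect p B) {χ : IrrCharacter G} (hχ : χ ∈ B) :
    MemLocalRing M (((p ^ blockDefect p β : ℕ) : ℂ) * (χ : G → ℂ) 1 / (Fintype.card G : ℂ) /
        (p : ℂ) ^ blockHeight p B (χ : G → ℂ)) := by
  have hp : p.Prime := Fact.out
  have h2 : ((p ^ blockDefect p β : ℕ) : ℂ) * (χ : G → ℂ) 1 / (Fintype.card G : ℂ) /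
      (p : ℂ) ^ blockHeight p B (χ : G → ℂ)
      = ((p ^ blockDefect p β * charDegree (χ : G → ℂ) : ℕ) : ℂ) /
        ((Fintype.card G * p ^ blockHeight p B (χ : G → ℂ) : ℕ) : ℂ) := by
    rw [irr_one_eq]; push_cast; rw [div_div]
  rw [h2]
  apply memLocalRing_natCast_div hM
    (Nat.mul_ne_zero Fintype.card_ne_zero (pow_ne_zero _ hp.ne_zero))
  rw [Nat.factorization_mul (pow_ne_zero _ hp.ne_zero) (irr_charDegree_pos χ).ne',
    Nat.factorization_mul Fintype.card_ne_zero (pow_ne_zero _ hp.ne_zero),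
    Nat.factorization_pow, Nat.factorization_pow, hmaj, blockDefect_eq, blockHeight_eq,
    Nat.card_eq_fintype_card]
  simp only [Finsupp.coe_add, Finsupp.coe_smul, Pi.add_apply, Pi.smul_apply, smul_eq_mul,
    hp.factorization_self, mul_one]
  have h3 := minDeg_le (p := p) hχ
  have h4 := minDeg_le_card (p := p) (⟨χ, hχ⟩ : B.Nonempty)
  rw [Nat.card_eq_fintype_card] at h4
  omega

/-- the contributions `α χ ψ` of a major subsection are divisible by `p^{h(χ)}` -/
theorem memLocalRing_subAlpha_div_off (hM : IsPModular p M) (x : G) {k : ℕ}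
    (hx : orderOf x = p ^ k)
    {B : Set (IrrCharacter G)} {β : Set (IrrCharacter (Cen x))}
    (hind : IsInducedBlock M (Cen x) β B) (hmaj : blockDefect p β = blockDefect p B)
    {χ : IrrCharacter G} (hχ : χ ∈ B) (ψ : IrrCharacter G) :
    MemLocalRing M (subAlpha p x β χ ψ / (p : ℂ) ^ blockHeight p B (χ : G → ℂ)) := by
  classical
  have hMp : M.IsPrime := hM.2.1.isPrime
  rw [subAlpha_eq_W hM x hx hind.1 χ ψ, mul_div_right_comm]
  refine MemLocalRing.mul hMp (memLocalRing_coeff_div hM x hmaj hχ) ?_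
  apply memLocalRing_sum_div_index hMp
  · intro g h
    simp only
    rw [orderOf_conj']
    have h5 := tw_isClassFunction x (centralChar_isClassFunction' (irr_isClassFunction χ)) g h
    have h6 : centralChar (χ : G → ℂ) (x * ((h * g * h⁻¹ : Cen x) : G))
        = centralChar (χ : G → ℂ) (x * (g : G)) := h5
    rw [h6, blockPart_isClassFunction' β _ g h]
  · intro s
    by_cases hs : p ∣ orderOf s
    · simp only [hs, not_true_eq_false, if_false]
      exact memLocalRing_zero hMp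
    · simp only [if_pos hs]
      exact MemLocalRing.mul hMp
        (memLocalRing_of_isIntegral hMp (isIntegral_centralChar χ.2 _))
        (memLocalRing_of_isIntegral hMp
          (map_isIntegral_int (starRingEnd ℂ) (isIntegral_blockPart_tw x β ψ s)))

/-- the contribution matrix is symmetric modulo the maximal ideal -/
theorem memLocalIdeal_subAlpha_symm (hM : IsPModular p M) (x : G) {k : ℕ} (hx : orderOf x = p ^ k)
    {B : Set (IrrCharacter G)} {b : Set (IrrCharacter (Cen x))}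
    (hind : IsInducedBlock M (Cen x) b B) {χ ψ : IrrCharacter G}
    (h : MemLocalIdeal M (subAlpha p x b χ ψ)) : MemLocalIdeal M (subAlpha p x b ψ χ) := by
  classical
  have hMp : M.IsPrime := hM.2.1.isPrime
  obtain ⟨lam, nn, m, hl, hm, hα, -⟩ := exists_subsection_data hM x hx hind
  have hw : ∀ ζ ξ, (lam ζ * conj (lam ξ)) ^ p ^ k = 1 := by
    intro ζ ξ
    rw [mul_pow, ← map_pow, hl, hl, map_one, one_mul]
  have h1 : ∀ χ ψ : IrrCharacter G, MemLocalIdeal M (subAlpha p x b χ ψ -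
      ((∑ ζ ∈ Finset.univ.filter (· ∈ b), ∑ ξ ∈ Finset.univ.filter (· ∈ b),
        (nn χ ζ : ℤ) * (nn ψ ξ : ℤ) * m ζ ξ : ℤ) : ℂ)) := by
    intro χ ψ
    rw [hα, Int.cast_sum, ← Finset.sum_sub_distrib]
    refine MemLocalIdeal.sum hMp _ _ fun ζ _ => ?_
    rw [Int.cast_sum, ← Finset.sum_sub_distrib]
    refine MemLocalIdeal.sum hMp _ _ fun ξ _ => ?_
    have : lam ζ * conj (lam ξ) * (((nn χ ζ : ℤ) * (nn ψ ξ : ℤ) * m ζ ξ : ℤ) : ℂ)
        - (((nn χ ζ : ℤ) * (nn ψ ξ : ℤ) * m ζ ξ : ℤ) : ℂ)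
        = (lam ζ * conj (lam ξ) - 1) * (((nn χ ζ : ℤ) * (nn ψ ξ : ℤ) * m ζ ξ : ℤ) : ℂ) := by
      ring
    rw [this]
    exact MemLocalIdeal.mul_right hMp (memLocalIdeal_root_sub_one hM (hw ζ ξ))
      (memLocalRing_intCast hMp _)
  have h2 : (∑ ζ ∈ Finset.univ.filter (· ∈ b), ∑ ξ ∈ Finset.univ.filter (· ∈ b),
        (nn χ ζ : ℤ) * (nn ψ ξ : ℤ) * m ζ ξ : ℤ)
      = ∑ ζ ∈ Finset.univ.filter (· ∈ b), ∑ ξ ∈ Finset.univ.filter (· ∈ b),
        (nn ψ ζ : ℤ) * (nn χ ξ : ℤ) * m ζ ξ := by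
    rw [Finset.sum_comm]
    refine Finset.sum_congr rfl fun ζ _ => Finset.sum_congr rfl fun ξ _ => ?_
    rw [hm ξ ζ]; ring
  rw [MemLocalIdeal.congr hMp (h1 ψ χ), ← h2, ← MemLocalIdeal.congr hMp (h1 χ ψ)]
  exact h

/-- for a character of positive height, `α χ χ / p^h` lies in the maximal ideal -/
theorem memLocalIdeal_subAlpha_div (hM : IsPModular p M) (x : G) {k : ℕ}
    (hx : orderOf x = p ^ k)
    {B : Set (IrrCharacter G)} {β : Set (IrrCharacter (Cen x))}
    (hind : IsInducedBlock M (Cen x) β B) (hmaj : blockDefect p β = blockDefect p B)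
    {χ : IrrCharacter G} (hχ : χ ∈ B) (hpos : 1 ≤ blockHeight p B (χ : G → ℂ)) :
    MemLocalIdeal M (subAlpha p x β χ χ / (p : ℂ) ^ blockHeight p B (χ : G → ℂ)) := by
  classical
  have hMp : M.IsPrime := hM.2.1.isPrime
  have hp : p.Prime := Fact.out
  have hpC : (p : ℂ) ≠ 0 := by exact_mod_cast hp.ne_zero
  obtain ⟨ψ, hψ, h0⟩ := exists_height_zero (p := p) (⟨χ, hχ⟩ : B.Nonempty)
  have hW := fun φ => subAlpha_eq_W hM x hx hind.1 φ χ
  set W : IrrCharacter G → ℂ := fun φ =>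
    ∑ s : Cen x, (if ¬ p ∣ orderOf s then centralChar (φ : G → ℂ) (x * (s : G)) *
        conj (blockPart β (tw x (χ : G → ℂ)) s) else 0) /
          ((Subgroup.centralizer ({s} : Set (Cen x))).index : ℂ) with hWdef
  have hdiff : MemLocalIdeal M (W χ - W ψ) := by
    have h1 : W χ - W ψ = ∑ s : Cen x, (if ¬ p ∣ orderOf s then
        (tw x (centralChar (χ : G → ℂ)) s - tw x (centralChar (ψ : G → ℂ)) s) *
        conj (blockPart β (tw x (χ : G → ℂ)) s) else 0) /
          ((Subgroup.centralizer ({s} : Set (Cen x))).index : ℂ) := by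
      rw [hWdef]
      simp only
      rw [← Finset.sum_sub_distrib]
      refine Finset.sum_congr rfl fun s _ => ?_
      by_cases hs : p ∣ orderOf s
      · simp [hs]
      · simp only [if_pos hs]
        ring
    rw [h1]
    apply memLocalIdeal_sum_div_index hMp
    · intro g h
      simp only
      rw [orderOf_conj',
        tw_isClassFunction x (centralChar_isClassFunction' (irr_isClassFunction χ)) g h,
        tw_isClassFunction x (centralChar_isClassFunction' (irr_isClassFunction ψ)) g h,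
        blockPart_isClassFunction' β _ g h]
    · intro s
      by_cases hs : p ∣ orderOf s
      · simp only [hs, not_true_eq_false, if_false]
        exact memLocalIdeal_zero hMp
      · simp only [if_pos hs]
        refine MemLocalIdeal.mul_right hMp (IsPBlock.sameBlock hMp hind.2.1 hχ hψ _) ?_
        exact memLocalRing_of_isIntegral hMp
          (map_isIntegral_int (starRingEnd ℂ) (isIntegral_blockPart_tw x β χ s))
  have h1 : MemLocalIdeal M (subAlpha p x β χ ψ) := by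
    have h2 := memLocalRing_subAlpha_div_off hM x hx hind hmaj hχ ψ
    have e : subAlpha p x β χ ψ = subAlpha p x β χ ψ / (p : ℂ) ^ blockHeight p B (χ : G → ℂ) *
        (p : ℂ) ^ blockHeight p B (χ : G → ℂ) := by
      field_simp
    rw [e]
    exact MemLocalIdeal.mul_left hMp h2
      ((memLocalIdeal_pow_iff hMp (memLocalRing_natCast hMp p) (by omega)).2 (memLocalIdeal_p hM))
  have h2 : MemLocalIdeal M (subAlpha p x β ψ χ) := memLocalIdeal_subAlpha_symm hM x hx hind h1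
  have hdeg : (charDegree (ψ : G → ℂ)).factorization p = minDeg p B :=
    (blockHeight_eq_zero_iff hψ).1 h0
  have hle := minDeg_le_card (p := p) (⟨ψ, hψ⟩ : B.Nonempty)
  have h3 : MemLocalIdeal M (W ψ) := by
    have hd0 : ((charDegree (ψ : G → ℂ) : ℕ) : ℂ) ≠ 0 := by
      exact_mod_cast (irr_charDegree_pos ψ).ne'
    have hG0 : (Fintype.card G : ℂ) ≠ 0 := by exact_mod_cast Fintype.card_ne_zero
    have e : W ψ = ((Fintype.card G : ℕ) : ℂ) /
        ((p ^ blockDefect p β * charDegree (ψ : G → ℂ) : ℕ) : ℂ) * subAlpha p x β ψ χ := by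
      rw [hW ψ, irr_one_eq]
      push_cast
      field_simp
      rfl
    rw [e]
    refine MemLocalIdeal.mul_left hMp ?_ h2
    apply memLocalRing_natCast_div hM
      (Nat.mul_ne_zero (pow_ne_zero _ hp.ne_zero) (irr_charDegree_pos ψ).ne')
    rw [Nat.factorization_mul (pow_ne_zero _ hp.ne_zero) (irr_charDegree_pos ψ).ne',
      Nat.factorization_pow, hmaj, blockDefect_eq, Nat.card_eq_fintype_card]
    simp only [Finsupp.coe_add, Finsupp.coe_smul, Pi.add_apply, Pi.smul_apply, smul_eq_mul,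
      hp.factorization_self, mul_one, hdeg]
    rw [Nat.card_eq_fintype_card] at hle
    omega
  have h4 : MemLocalIdeal M (W χ) := (MemLocalIdeal.congr hMp hdiff).2 h3
  rw [hW χ, mul_div_right_comm]
  exact MemLocalIdeal.mul_left hMp (memLocalRing_coeff_div hM x hmaj hχ) h4

end P

section Two

open Classical in
/-- the traces of the diagonal contributions are `φ` times integers, odd in height zero -/
theorem exists_trace_int (hM : IsPModular 2 M) (x : G) {k : ℕ} (hx : orderOf x = 2 ^ k)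
    {B : Set (IrrCharacter G)} {b : Set (IrrCharacter (Cen x))}
    (hind : IsInducedBlock M (Cen x) b B)
    (τ : (ZMod (2 ^ (k + 2)))ˣ → (ℂ ≃+* ℂ))
    (hτ1 : ∀ j w, w ^ 2 ^ (k + 2) = 1 → τ j w = w ^ (j : ZMod (2 ^ (k + 2))).val) :
    ∃ Z : IrrCharacter G → ℤ,
      (∀ χ, ∑ j, τ j (subAlpha 2 x b χ χ)
        = (Fintype.card (ZMod (2 ^ (k + 2)))ˣ : ℂ) * (Z χ : ℂ)) ∧
      ∀ χ ∈ B, blockHeight 2 B (χ : G → ℂ) = 0 → Odd (Z χ) := by
  have : Fact (Nat.Prime 2) := ⟨Nat.prime_two⟩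
  obtain ⟨lam, nn, m, hl, hm, hα, hβ⟩ := exists_subsection_data hM x hx hind
  have hφ : (Fintype.card (ZMod (2 ^ (k + 2)))ˣ : ℂ) ≠ 0 := by
    exact_mod_cast Fintype.card_ne_zero
  have hw : ∀ ζ ξ, (lam ζ * conj (lam ξ)) ^ 2 ^ (k + 2) = 1 := by
    intro ζ ξ
    rw [pow_add, pow_mul, mul_pow, ← map_pow, hl, hl, map_one, one_mul, one_pow]
  choose A hA using fun ζ ξ => rootAvg_two_pow_int (hw ζ ξ)
  have hAsymm : ∀ ζ ξ, A ζ ξ = A ξ ζ := by
    intro ζ ξ
    have h1 : lam ζ * conj (lam ξ) = conj (lam ξ * conj (lam ζ)) := by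
      rw [map_mul, Complex.conj_conj, mul_comm]
    have h2 := hA ζ ξ
    rw [h1, rootAvg_conj, hA, map_intCast] at h2
    exact_mod_cast h2.symm
  have hAdiag : ∀ ζ, A ζ ζ = 1 := by
    intro ζ
    have h1 : ‖lam ζ‖ = 1 :=
      Complex.norm_eq_one_of_pow_eq_one (hl ζ) (pow_ne_zero _ two_ne_zero)
    have h2 : lam ζ * conj (lam ζ) = 1 := by rw [Complex.mul_conj', h1]; simp
    have h3 := hA ζ ζ
    rw [h2, rootAvg_one] at h3
    exact_mod_cast h3.symm
  refine ⟨fun χ => ∑ ζ ∈ Finset.univ.filter (· ∈ b), ∑ ξ ∈ Finset.univ.filter (· ∈ b),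
        A ζ ξ * ((nn χ ζ : ℤ) * (nn χ ξ : ℤ) * m ζ ξ), fun χ => ?_, fun χ hχ h0 => ?_⟩
  · have h2 : ∀ j : (ZMod (2 ^ (k + 2)))ˣ, τ j (subAlpha 2 x b χ χ)
        = ∑ ζ ∈ Finset.univ.filter (· ∈ b), ∑ ξ ∈ Finset.univ.filter (· ∈ b),
          (lam ζ * conj (lam ξ)) ^ (j : ZMod (2 ^ (k + 2))).val *
          (((nn χ ζ : ℤ) * (nn χ ξ : ℤ) * m ζ ξ : ℤ) : ℂ) := by
      intro j
      rw [hα, map_sum]
      refine Finset.sum_congr rfl fun ζ _ => ?_
      rw [map_sum]
      refine Finset.sum_congr rfl fun ξ _ => ?_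
      rw [map_mul, map_intCast, hτ1 j _ (hw ζ ξ)]
    rw [Finset.sum_congr rfl fun j _ => h2 j, Finset.sum_comm, Int.cast_sum, Finset.mul_sum]
    refine Finset.sum_congr rfl fun ζ _ => ?_
    rw [Finset.sum_comm, Int.cast_sum, Finset.mul_sum]
    refine Finset.sum_congr rfl fun ξ _ => ?_
    rw [← Finset.sum_mul, Int.cast_mul (A ζ ξ), ← hA ζ ξ]
    unfold rootAvg
    rw [← mul_assoc, mul_inv_cancel_left₀ hφ]
  · have h1 := hβ χ hχ χ hχ h0 h0
    rw [memLocalIdeal_intCast_iff hM] at h1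
    have h2 : Even (∑ ζ ∈ Finset.univ.filter (· ∈ b), ∑ ξ ∈ Finset.univ.filter (· ∈ b),
        (A ζ ξ - 1) * ((nn χ ζ : ℤ) * (nn χ ξ : ℤ) * m ζ ξ)) := by
      apply even_sum_symm
      · intro ζ ξ
        rw [hAsymm ζ ξ, hm ζ ξ]; ring
      · intro ζ
        rw [hAdiag]; ring
    have h3 : (∑ ζ ∈ Finset.univ.filter (· ∈ b), ∑ ξ ∈ Finset.univ.filter (· ∈ b),
        A ζ ξ * ((nn χ ζ : ℤ) * (nn χ ξ : ℤ) * m ζ ξ))
        = (∑ ζ ∈ Finset.univ.filter (· ∈ b), ∑ ξ ∈ Finset.univ.filter (· ∈ b),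
        (A ζ ξ - 1) * ((nn χ ζ : ℤ) * (nn χ ξ : ℤ) * m ζ ξ)) +
        ∑ ζ ∈ Finset.univ.filter (· ∈ b), ∑ ξ ∈ Finset.univ.filter (· ∈ b),
          (nn χ ζ : ℤ) * (nn χ ξ : ℤ) * m ζ ξ := by
      rw [← Finset.sum_add_distrib]
      refine Finset.sum_congr rfl fun ζ _ => ?_
      rw [← Finset.sum_add_distrib]
      refine Finset.sum_congr rfl fun ξ _ => by ring
    show Odd (∑ ζ ∈ Finset.univ.filter (· ∈ b), ∑ ξ ∈ Finset.univ.filter (· ∈ b),
        A ζ ξ * ((nn χ ζ : ℤ) * (nn χ ξ : ℤ) * m ζ ξ))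
    rw [h3]
    apply Even.add_odd h2
    rw [← Int.not_even_iff_odd, even_iff_two_dvd]
    exact_mod_cast h1

open Classical in
/-- **Sambale**: `3 k₀ + 2 ∑ 2^h ≤ 3 · 2^d` if `l(b) ≤ 3` for a major subsection `(x, b)`. -/
theorem two_major_bound (hM : IsPModular 2 M) (x : G) {k : ℕ} (hx : orderOf x = 2 ^ k)
    {B : Set (IrrCharacter G)} {b : Set (IrrCharacter (Cen x))}
    (hind : IsInducedBlock M (Cen x) b B) (hmaj : blockDefect 2 b = blockDefect 2 B)
    (hl : blockRank 2 b ≤ 3) :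
    ∑ χ ∈ Finset.univ.filter (· ∈ B), (if blockHeight 2 B (χ : G → ℂ) = 0 then 3
      else 2 * 2 ^ blockHeight 2 B (χ : G → ℂ)) ≤ 3 * 2 ^ blockDefect 2 B := by
  have : Fact (Nat.Prime 2) := ⟨Nat.prime_two⟩
  have hMp : M.IsPrime := hM.2.1.isPrime
  obtain ⟨τ, hτ1, hτ2, hτ3⟩ := galois_pkg_two hM k
  obtain ⟨Z, hZ, hodd⟩ := exists_trace_int hM x hx hind τ hτ1
  have hkn : 2 ^ k ∣ 2 ^ (k + 2) := pow_dvd_pow 2 (by omega)
  obtain ⟨ψ0, hψ0, h0⟩ := exists_height_zero (p := 2) (IsPBlock.nonempty hMp hind.2.1)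
  rw [← hmaj]
  refine abstract_two_bound (M := M) k τ hτ1 hτ2 hτ3 (Finset.univ.filter (· ∈ B))
    (fun χ => blockHeight 2 B (χ : G → ℂ)) (subAlpha 2 x b)
    (fun χ ψ => subAlpha_mem_rootRing hM x hx hkn hind χ ψ) (2 ^ blockDefect 2 b)
    (blockRank 2 b : ℤ) (by positivity) (by exact_mod_cast hl) (subAlpha_herm x b)
    (fun χ _ => subAlpha_sq hM x ⟨k, hx⟩ hind χ)
    (by rw [subAlpha_trace hM x ⟨k, hx⟩ hind]; push_cast; rfl) Z (fun χ _ => hZ χ)
    (fun χ hχ => hodd χ (Finset.mem_filter.1 hχ).2)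
    ⟨ψ0, Finset.mem_filter.2 ⟨Finset.mem_univ _, hψ0⟩, h0⟩ ?_ ?_
  · intro ψ1 hψ1 h1 χ hχ
    refine ⟨subAlpha_ne_zero_of_major hM x hx hind hmaj (Finset.mem_filter.1 hχ).2
      (Finset.mem_filter.1 hψ1).2 h1, ?_⟩
    have h2 := memLocalRing_subAlpha_div_off hM x hx hind hmaj (Finset.mem_filter.1 hχ).2 ψ1
    rw [Nat.cast_ofNat] at h2
    exact h2
  · intro χ hχ hpos
    have h2 := memLocalIdeal_subAlpha_div hM x hx hind hmaj (Finset.mem_filter.1 hχ).2 hpos
    rw [Nat.cast_ofNat] at h2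
    exact h2

open Classical in
/-- **Sambale**: the same bound if `k(B) - l(b) ≤ 3`. -/
theorem two_major_bound_compl (hM : IsPModular 2 M) (x : G) {k : ℕ} (hx : orderOf x = 2 ^ k)
    {B : Set (IrrCharacter G)} {b : Set (IrrCharacter (Cen x))}
    (hind : IsInducedBlock M (Cen x) b B) (hmaj : blockDefect 2 b = blockDefect 2 B)
    (hd : 1 ≤ blockDefect 2 B)
    (hht : ∀ χ ∈ B, blockHeight 2 B (χ : G → ℂ) < blockDefect 2 B)
    (hl : (Finset.univ.filter (· ∈ B)).card ≤ blockRank 2 b + 3) :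
    ∑ χ ∈ Finset.univ.filter (· ∈ B), (if blockHeight 2 B (χ : G → ℂ) = 0 then 3
      else 2 * 2 ^ blockHeight 2 B (χ : G → ℂ)) ≤ 3 * 2 ^ blockDefect 2 B := by
  have : Fact (Nat.Prime 2) := ⟨Nat.prime_two⟩
  have hMp : M.IsPrime := hM.2.1.isPrime
  obtain ⟨τ, hτ1, hτ2, hτ3⟩ := galois_pkg_two hM k
  obtain ⟨Z, hZ, hodd⟩ := exists_trace_int hM x hx hind τ hτ1
  have hkn : 2 ^ k ∣ 2 ^ (k + 2) := pow_dvd_pow 2 (by omega)
  obtain ⟨ψ0, hψ0, h0⟩ := exists_height_zero (p := 2) (IsPBlock.nonempty hMp hind.2.1)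
  rw [← hmaj] at hd hht ⊢
  obtain ⟨N, hN⟩ : ∃ N : ℕ, N = 2 ^ blockDefect 2 b := ⟨_, rfl⟩
  have hsq := subAlpha_sq hM x ⟨k, hx⟩ hind
  have htr := subAlpha_trace hM x ⟨k, hx⟩ hind
  rw [← hN] at hsq htr ⊢
  have hNpos : 0 < N := by rw [hN]; positivity
  have hNl : MemLocalIdeal M (N : ℂ) := by
    rw [hN]
    push_cast
    have h1 := (memLocalIdeal_pow_iff hMp (memLocalRing_natCast hMp 2)
      (n := blockDefect 2 b) (by omega)).2 (memLocalIdeal_p hM)
    rw [Nat.cast_ofNat] at h1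
    exact h1
  have hαR := fun χ ψ => subAlpha_mem_rootRing (n := 2 ^ (k + 2)) hM x hx hkn hind χ ψ
  refine abstract_two_bound (M := M) k τ hτ1 hτ2 hτ3 (Finset.univ.filter (· ∈ B))
    (fun χ => blockHeight 2 B (χ : G → ℂ))
    (fun χ ψ => (if χ = ψ then (N : ℂ) else 0) - subAlpha 2 x b χ ψ)
    (fun χ ψ => Subring.sub_mem _ ?_ (hαR χ ψ)) N
    (((Finset.univ.filter (· ∈ B)).card : ℤ) - (blockRank 2 b : ℤ)) hNpos (by omega) ?_ ?_ ?_
    (fun χ => (N : ℤ) - Z χ) ?_ ?_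
    ⟨ψ0, Finset.mem_filter.2 ⟨Finset.mem_univ _, hψ0⟩, h0⟩ ?_ ?_
  · split_ifs
    · exact natCast_mem _ _
    · exact Subring.zero_mem _
  · intro χ ψ
    rw [map_sub, ← subAlpha_herm]
    by_cases h : χ = ψ
    · rw [if_pos h, if_pos h.symm, Complex.conj_natCast]
    · rw [if_neg h, if_neg (Ne.symm h), map_zero]
  · intro χ hχ
    simp only
    have e : ∀ ψ, ((if χ = ψ then (N : ℂ) else 0) - subAlpha 2 x b χ ψ) *
        conj ((if χ = ψ then (N : ℂ) else 0) - subAlpha 2 x b χ ψ)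
        = (if χ = ψ then ((N : ℂ) * N - N * conj (subAlpha 2 x b χ ψ) - N * subAlpha 2 x b χ ψ)
            else 0) + subAlpha 2 x b χ ψ * conj (subAlpha 2 x b χ ψ) := by
      intro ψ
      by_cases h : χ = ψ
      · rw [if_pos h, if_pos h, map_sub, Complex.conj_natCast]; ring
      · rw [if_neg h, if_neg h, map_sub, map_zero]; ring
    rw [Finset.sum_congr rfl fun ψ _ => e ψ, Finset.sum_add_distrib, Finset.sum_ite_eq, if_pos hχ,
      hsq, ← subAlpha_herm, if_pos trivial]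
    ring
  · simp only [if_true]
    rw [Finset.sum_sub_distrib, htr, Finset.sum_const, nsmul_eq_mul]
    push_cast
    ring
  · intro χ _
    simp only [if_true, map_sub, map_natCast]
    rw [Finset.sum_sub_distrib, hZ, Finset.sum_const, Finset.card_univ, nsmul_eq_mul]
    push_cast
    ring
  · intro χ hχ h1
    have h2 : Even (N : ℤ) := by
      rw [hN]
      push_cast
      exact (Int.even_pow.2 ⟨even_two, by omega⟩)
    exact h2.sub_odd (hodd χ (Finset.mem_filter.1 hχ).2 h1)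
  · intro ψ1 hψ1 h1 χ hχ
    have hχB := (Finset.mem_filter.1 hχ).2
    have hψB := (Finset.mem_filter.1 hψ1).2
    have h2 := memLocalRing_subAlpha_div_off hM x hx hind hmaj hχB ψ1
    rw [Nat.cast_ofNat] at h2
    by_cases h : χ = ψ1
    · subst h
      rw [if_pos rfl]
      refine ⟨fun h3 => ?_, ?_⟩
      · apply not_memLocalIdeal_subAlpha hM x hx hind hχB hχB h1 h1
        rw [← sub_eq_zero.1 h3]
        exact hNl
      · rw [sub_div]
        refine MemLocalRing.sub hMp ?_ h2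
        rw [h1, pow_zero, div_one]
        exact memLocalRing_natCast hMp _
    · rw [if_neg h, zero_sub]
      refine ⟨neg_ne_zero.2 (subAlpha_ne_zero_of_major hM x hx hind hmaj hχB hψB h1), ?_⟩
      rw [neg_div]
      exact MemLocalRing.neg h2
  · intro χ hχ hpos
    have hχB := (Finset.mem_filter.1 hχ).2
    have h2 := memLocalIdeal_subAlpha_div hM x hx hind hmaj hχB hpos
    rw [Nat.cast_ofNat] at h2
    simp only [if_true]
    rw [sub_div]
    refine MemLocalIdeal.sub hMp ?_ h2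
    have h3 := hht χ hχB
    have e : (N : ℂ) / 2 ^ blockHeight 2 B (χ : G → ℂ)
        = 2 ^ (blockDefect 2 b - blockHeight 2 B (χ : G → ℂ)) := by
      rw [hN]
      push_cast
      rw [div_eq_iff (pow_ne_zero _ two_ne_zero), ← pow_add]
      congr 1
      omega
    rw [e]
    have h4 := (memLocalIdeal_pow_iff hMp (memLocalRing_natCast hMp 2)
      (n := blockDefect 2 b - blockHeight 2 B (χ : G → ℂ)) (by omega)).2 (memLocalIdeal_p hM)
    rw [Nat.cast_ofNat] at h4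
    exact h4

open Classical in
theorem three_mul_card_le_weight (B : Set (IrrCharacter G)) (ht : IrrCharacter G → ℕ) :
    3 * (Finset.univ.filter (· ∈ B)).card
      ≤ ∑ χ ∈ Finset.univ.filter (· ∈ B), (if ht χ = 0 then 3 else 2 * 2 ^ ht χ) := by
  rw [mul_comm, ← smul_eq_mul, ← Finset.sum_const]
  refine Finset.sum_le_sum fun χ _ => ?_
  by_cases h : ht χ = 0
  · rw [if_pos h]
  · rw [if_neg h]
    have h1 : 2 ^ 1 ≤ 2 ^ ht χ := Nat.pow_le_pow_right (by norm_num) (by omega)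
    omega

open Classical in
theorem weight_sum_eq (B : Set (IrrCharacter G)) (ht : IrrCharacter G → ℕ) :
    ∑ χ ∈ Finset.univ.filter (· ∈ B), (if ht χ = 0 then 3 else 2 * 2 ^ ht χ)
      = 3 * Nat.card {χ : IrrCharacter G // χ ∈ B ∧ ht χ = 0}
        + 2 * (∑ᶠ χ ∈ {χ : IrrCharacter G | χ ∈ B ∧ 1 ≤ ht χ}, 2 ^ ht χ) := by
  have h1 : ({χ : IrrCharacter G | χ ∈ B ∧ 1 ≤ ht χ} : Set (IrrCharacter G))
      = ↑((Finset.univ.filter (· ∈ B)).filter (fun χ => ¬ ht χ = 0)) := by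
    ext χ
    rw [Finset.mem_coe, Finset.mem_filter, Finset.mem_filter]
    constructor
    · rintro ⟨h, h'⟩; exact ⟨⟨Finset.mem_univ _, h⟩, by omega⟩
    · rintro ⟨⟨-, h⟩, h'⟩; exact ⟨h, by omega⟩
  have h2 : Nat.card {χ : IrrCharacter G // χ ∈ B ∧ ht χ = 0}
      = ((Finset.univ.filter (· ∈ B)).filter (fun χ => ht χ = 0)).card := by
    rw [Nat.card_eq_fintype_card, Fintype.card_subtype, Finset.filter_filter]
  rw [h1, finsum_mem_coe_finset, h2, Finset.sum_ite, Finset.sum_const, smul_eq_mul, mul_comm,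
    Finset.mul_sum]

end Two

end Cfsg.Agent.Lib.Helper97
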